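import Mathlib.RingTheory.KrullDimension.Regular
import Mathlib.RingTheory.Regular.Flat
import Mathlib.RingTheory.Unramified.LocalRing
import Mathlib.RingTheory.Etale.Basic
import Mathlib.RingTheory.Smooth.Flat
import Mathlib.RingTheory.DiscreteValuationRing.TFAE
import Groth.Agent.Pi1.H404.AlgCore

/-!
# Points of codimension one on the zero locus of an étale coordinate (ring level)

`A` a domain, `P = A[X]` (as `MvPolynomial PUnit A`).
-/

set_option autoImplicit false
universe u

open IsLocalRing RingTheory.Sequence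

namespace Groth.Agent.Pi1.H384.ChartDvr

variable {A : Type u} [CommRing A] [IsDomain A]

theorem X_dvd_sub_C {A : Type u} [CommRing A] (g : MvPolynomial PUnit.{u+1} A) :
    (MvPolynomial.X PUnit.unit : MvPolynomial PUnit.{u+1} A) ∣ g - MvPolynomial.C (MvPolynomial.constantCoeff g) := by
  have h := Groth.Agent.Pi1.H404.AlgCore.X_dvd_sub_kill PUnit.unit.{u+1} g
  have h2 : Groth.Agent.Pi1.H404.AlgCore.kill A PUnit.unit.{u+1} g =
      MvPolynomial.C (MvPolynomial.constantCoeff g) := by
    have h3 : Groth.Agent.Pi1.H404.AlgCore.kill A PUnit.unit.{u+1} =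
        MvPolynomial.aeval (0 : PUnit.{u+1} → MvPolynomial PUnit.{u+1} A) := by
      apply MvPolynomial.algHom_ext
      intro i
      rw [← Subsingleton.elim PUnit.unit i, Groth.Agent.Pi1.H404.AlgCore.kill_X]
      simp
    rw [h3, MvPolynomial.aeval_zero]
    rfl
  rwa [h2] at h

/-- `[X, a]` is a weakly regular sequence on `A[X]`. -/
theorem isWeaklyRegular_X_C {a : A} (ha : a ≠ 0) :
    IsWeaklyRegular (MvPolynomial PUnit.{u+1} A)
      [(MvPolynomial.X PUnit.unit : MvPolynomial PUnit.{u+1} A), MvPolynomial.C a] := by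
  rw [isWeaklyRegular_cons_iff, isWeaklyRegular_singleton_iff]
  constructor
  · exact MvPolynomial.isRegular_X.left
  · rw [isSMulRegular_iff_right_eq_zero_of_smul]
    intro x hx
    obtain ⟨g, rfl⟩ := Submodule.Quotient.mk_surjective _ x
    rw [← Submodule.Quotient.mk_smul, Submodule.Quotient.mk_eq_zero] at hx
    rw [Submodule.Quotient.mk_eq_zero]
    obtain ⟨g', -, hg'⟩ := hx
    have h1 : (MvPolynomial.X PUnit.unit : MvPolynomial PUnit.{u+1} A) ∣ MvPolynomial.C a * g :=
      ⟨g', hg'.symm⟩
    rw [Groth.Agent.Pi1.H404.AlgCore.X_dvd_iff] at h1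
    rw [map_mul] at h1
    have h2 : Groth.Agent.Pi1.H404.AlgCore.kill A PUnit.unit.{u+1} (MvPolynomial.C a) = MvPolynomial.C a :=
      AlgHom.commutes _ a
    rw [h2] at h1
    have h3 := (mul_eq_zero.mp h1).resolve_left (by simpa using ha)
    rw [← Groth.Agent.Pi1.H404.AlgCore.X_dvd_iff] at h3
    obtain ⟨g'', rfl⟩ := h3
    exact ⟨g'', trivial, rfl⟩

/-- If a flat local algebra over `A[X]` of dimension at most one contains both `X` and `a ∈ A` in its maximal ideal,
then `a = 0`. -/
theorem eq_zero_of_mem {O : Type u} [CommRing O] [IsLocalRing O] [IsNoetherianRing O]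
    [Algebra (MvPolynomial PUnit.{u+1} A) O] [Module.Flat (MvPolynomial PUnit.{u+1} A) O]
    (hdim : ringKrullDim O ≤ 1)
    (hX : algebraMap (MvPolynomial PUnit.{u+1} A) O (MvPolynomial.X PUnit.unit) ∈ maximalIdeal O) {a : A}
    (ha : algebraMap (MvPolynomial PUnit.{u+1} A) O (MvPolynomial.C a) ∈ maximalIdeal O) : a = 0 := by
  by_contra ha0
  have h1 := (isWeaklyRegular_X_C ha0).of_flat (S := O)
  simp only [List.map_cons, List.map_nil] at h1
  have h2 := RingTheory.Sequence.IsRegular.of_isWeaklyRegular_of_mem_maximalIdeal O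
    (by
      intro r hr
      simp only [List.mem_cons, List.not_mem_nil, or_false] at hr
      rcases hr with rfl | rfl
      · exact hX
      · exact ha) h1
  have h3 := ringKrullDim_add_length_eq_ringKrullDim_of_isRegular _ h2
  have h4 : Nontrivial (O ⧸ Ideal.ofList [algebraMap (MvPolynomial PUnit.{u+1} A) O (MvPolynomial.X PUnit.unit),
      algebraMap (MvPolynomial PUnit.{u+1} A) O (MvPolynomial.C a)]) := by
    refine Ideal.Quotient.nontrivial_iff.mpr (ne_top_of_le_ne_top (maximalIdeal.isMaximal O).ne_top ?_)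
    rw [Ideal.ofList, Ideal.span_le]
    intro r hr
    simp only [List.mem_cons, List.not_mem_nil, or_false, Set.mem_ofPred_eq] at hr
    rcases hr with rfl | rfl
    · exact hX
    · exact ha
  have h5 := ringKrullDim_nonneg_of_nontrivial (R := O ⧸ Ideal.ofList [algebraMap (MvPolynomial PUnit.{u+1} A) O (MvPolynomial.X PUnit.unit),
      algebraMap (MvPolynomial PUnit.{u+1} A) O (MvPolynomial.C a)])
  have h6 : (2 : WithBot ℕ∞) ≤ ringKrullDim O := by
    rw [← h3]
    simp only [List.length_cons, List.length_nil, zero_add, Nat.reduceAdd, Nat.cast_ofNat]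
    exact le_add_of_nonneg_left h5
  have h7 := h6.trans hdim
  exact absurd h7 (by decide)

omit [IsDomain A] in
/-- The maximal ideal at a point of codimension one of the zero locus of an étale coordinate. -/
theorem maximalIdeal_eq {B : Type u} [CommRing B] [Algebra (MvPolynomial PUnit.{u+1} A) B]
    [Algebra.Etale (MvPolynomial PUnit.{u+1} A) B] (q : Ideal B) [q.IsPrime]
    (hX : algebraMap (MvPolynomial PUnit.{u+1} A) B (MvPolynomial.X PUnit.unit) ∈ q)
    (hA : ∀ a : A, algebraMap (MvPolynomial PUnit.{u+1} A) B (MvPolynomial.C a) ∈ q → a = 0)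
    (O : Type u) [CommRing O] [Algebra B O] [IsLocalization.AtPrime O q] [IsLocalRing O] :
    maximalIdeal O = Ideal.span {algebraMap B O
      (algebraMap (MvPolynomial PUnit.{u+1} A) B (MvPolynomial.X PUnit.unit))} := by
  let P := MvPolynomial PUnit.{u+1} A
  let p : Ideal P := q.under P
  let _ := Localization.AtPrime.algebraOfLiesOver p q
  have h1 := ((Algebra.isUnramifiedAt_iff_map_eq P p q).mp inferInstance).2
  have hp : p = Ideal.span {(MvPolynomial.X PUnit.unit : P)} := by
    apply le_antisymm
    · intro g hg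
      obtain ⟨g', hg'⟩ := X_dvd_sub_C g
      have h2 : MvPolynomial.C (MvPolynomial.constantCoeff g) ∈ p := by
        have h3 : (MvPolynomial.C (MvPolynomial.constantCoeff g) : P) = g - MvPolynomial.X PUnit.unit * g' := by
          rw [← hg']; ring
        rw [h3]
        exact sub_mem hg (Ideal.mul_mem_right _ _ hX)
      have h4 := hA _ h2
      rw [h4, map_zero, sub_zero] at hg'
      rw [hg']
      exact Ideal.mul_mem_right _ _ (Ideal.mem_span_singleton_self _)
    · rw [Ideal.span_singleton_le_iff_mem]
      exact hX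
  rw [hp, Ideal.map_span, Set.image_singleton] at h1
  let e : Localization.AtPrime q ≃ₐ[B] O := IsLocalization.algEquiv q.primeCompl _ _
  have h5 : maximalIdeal O = (maximalIdeal (Localization.AtPrime q)).map e.toRingEquiv :=
    (IsLocalRing.eq_maximalIdeal (Ideal.map_isMaximal_of_equiv e.toRingEquiv)).symm
  rw [h5, ← h1, Ideal.map_span, Set.image_singleton]
  congr 2
  change e _ = _
  rw [IsScalarTower.algebraMap_apply P B (Localization.AtPrime q)]
  exact e.commutes _

end Groth.Agent.Pi1.H384.ChartDvr
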