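import Mathlib.AlgebraicGeometry.AffineSpace
import Mathlib.AlgebraicGeometry.Morphisms.Etale

/-!
# The complement of a coordinate hyperplane is dense in affine space

`dense_coord` : `{x_i ≠ 0}` is dense in `𝔸(n; S)`, for any scheme `S`;
`dense_of_etale` : if `(s, v) : E → 𝔸(n; T)` is étale then `{v_i ≠ 0}` is dense in `E`.
-/

set_option autoImplicit false
universe u

open CategoryTheory CategoryTheory.Limits AlgebraicGeometry TopologicalSpace

namespace Groth.Agent.Pi1.H384.DenseCoord

theorem mem_basicOpen_appTop {X X' : Scheme.{u}} (p : X' ⟶ X) (s : Γ(X, ⊤)) (x' : X') :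
    x' ∈ X'.basicOpen (p.appTop s) ↔ p x' ∈ X.basicOpen s := by
  have h : p ⁻¹ᵁ X.basicOpen s = X'.basicOpen (p.appTop s) := Scheme.preimage_basicOpen_top p s
  rw [← h]
  rfl

/-- In the spectrum of a polynomial ring the locus where a variable does not vanish is dense. -/
theorem dense_X {n : Type u} {R : Type u} [CommRing R] (i : n) :
    Dense (PrimeSpectrum.basicOpen (MvPolynomial.X i : MvPolynomial n R) :
      Set (PrimeSpectrum (MvPolynomial n R))) := by
  rw [PrimeSpectrum.isTopologicalBasis_basic_opens.dense_iff]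
  rintro _ ⟨f, rfl⟩ ⟨x, hx⟩
  by_contra hne
  rw [Set.not_nonempty_iff_eq_empty] at hne
  have h1 : (PrimeSpectrum.basicOpen (f * MvPolynomial.X i) : Set (PrimeSpectrum (MvPolynomial n R))) = ∅ := by
    rw [PrimeSpectrum.basicOpen_mul]
    exact hne
  have h2 : IsNilpotent (f * MvPolynomial.X i) := by
    rw [← PrimeSpectrum.basicOpen_eq_bot_iff]
    exact TopologicalSpace.Opens.ext h1
  obtain ⟨k, hk⟩ := h2
  rw [mul_pow] at hk
  have h3 : f ^ k = 0 := by
    have h4 := (MvPolynomial.isRegular_X_pow (R := R) (n := i) k).right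
    exact h4 (by simpa using hk)
  have h5 : PrimeSpectrum.basicOpen f = ⊥ := PrimeSpectrum.basicOpen_eq_bot_iff f |>.mpr ⟨k, h3⟩
  have h6 : x ∈ PrimeSpectrum.basicOpen f := hx
  rw [h5] at h6
  exact h6

theorem dense_coord_of_isAffine {n : Type u} (i : n) (S : Scheme.{u}) [IsAffine S] :
    Dense ((𝔸(n; S)).basicOpen (AffineSpace.coord S i) : Set 𝔸(n; S)) := by
  have h1 := dense_X (R := Γ(S, ⊤)) i
  let e := (AffineSpace.isoOfIsAffine n S)
  have h2 : ∀ x : Spec (.of (MvPolynomial n Γ(S, ⊤))), e.inv x ∈ (𝔸(n; S)).basicOpen (AffineSpace.coord S i) ↔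
      x ∈ PrimeSpectrum.basicOpen (MvPolynomial.X i : MvPolynomial n Γ(S, ⊤)) := by
    intro x
    rw [← mem_basicOpen_appTop, AffineSpace.isoOfIsAffine_inv_appTop_coord, basicOpen_eq_of_affine']
    simp
    rfl
  intro y
  rw [mem_closure_iff]
  intro N hN hy
  have h3 : e.hom y ∈ e.inv ⁻¹' N := by
    change e.inv (e.hom y) ∈ N
    rwa [← Scheme.Hom.comp_apply, e.hom_inv_id]
  obtain ⟨x, hx1, hx2⟩ := mem_closure_iff.mp (h1 (e.hom y)) (e.inv ⁻¹' N) (hN.preimage e.inv.continuous) h3
  exact ⟨e.inv x, hx1, (h2 x).mpr hx2⟩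

/-- The complement of a coordinate hyperplane is dense in affine space over any scheme. -/
theorem dense_coord {n : Type u} (i : n) (S : Scheme.{u}) :
    Dense ((𝔸(n; S)).basicOpen (AffineSpace.coord S i) : Set 𝔸(n; S)) := by
  intro y
  rw [mem_closure_iff]
  intro N hN hy
  let c := S.affineCover.idx ((𝔸(n; S) ↘ S) y)
  let f := S.affineCover.f c
  obtain ⟨t, ht⟩ := S.affineCover.covers ((𝔸(n; S) ↘ S) y)
  have hp := AffineSpace.isPullback_map (n := n) f
  obtain ⟨z, hz, -⟩ := Scheme.Pullback.exists_preimage_pullback y t ht.symm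
  let y' : 𝔸(n; S.affineCover.X c) := hp.isoPullback.inv z
  have hy' : AffineSpace.map n f y' = y := by
    rw [← hz, ← hp.isoPullback_inv_fst, Scheme.Hom.comp_apply]
  obtain ⟨x, hx1, hx2⟩ := mem_closure_iff.mp (dense_coord_of_isAffine i (S.affineCover.X c) y')
    (AffineSpace.map n f ⁻¹' N) (hN.preimage (AffineSpace.map n f).continuous)
    (by change AffineSpace.map n f y' ∈ N; rwa [hy'])
  refine ⟨AffineSpace.map n f x, hx1, ?_⟩
  have h := (mem_basicOpen_appTop (AffineSpace.map n f) (AffineSpace.coord S i) x).mp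
    (by rw [AffineSpace.map_appTop_coord]; exact hx2)
  exact h

/-- If `(s, v) : E → 𝔸(n; T)` is étale then `{v_i ≠ 0}` is dense in `E`. -/
theorem dense_of_etale {n : Type u} {E T : Scheme.{u}} (s : E ⟶ T) (v : n → Γ(E, ⊤))
    (he : Etale (AffineSpace.homOfVector s v)) (i : n) :
    Dense (E.basicOpen (v i) : Set E) := by
  have h := (dense_coord i T).preimage (AffineSpace.homOfVector s v).isOpenMap
  intro e
  have h1 := h e
  refine closure_mono ?_ h1
  intro x hx
  have h2 := (mem_basicOpen_appTop (AffineSpace.homOfVector s v) (AffineSpace.coord T i) x).mpr hx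
  rwa [AffineSpace.homOfVector_appTop_coord] at h2

end Groth.Agent.Pi1.H384.DenseCoord
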