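import Groth.Agent.Pi1.H384.ChartDvr
import Groth.Agent.Pi1.H384.DenseCoord
import Groth.Agent.Pi1.H411.Chart

/-!
# Points of codimension one on the zero locus of an étale coordinate

`T` an affine scheme with `Γ(T)` a domain, `s : W ⟶ T`, `f ∈ Γ(W)` with `(s, f) : W ⟶ 𝔸¹_T` étale, `w ∈ W` with
`f(w) = 0`.

`eq_zero` : if `dim 𝒪_{W,w} ≤ 1` then `s w` is the generic point of `T`;
`maximalIdeal_eq` : if `s w` is the generic point of `T` then the maximal ideal of `𝒪_{W,w}` is generated by `f`.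
-/

set_option autoImplicit false
universe u

open CategoryTheory CategoryTheory.Limits AlgebraicGeometry TopologicalSpace IsLocalRing

namespace Groth.Agent.Pi1.H384.ChartDvrSch

open DenseCoord

theorem germ_top_appTop {X Y : Scheme.{u}} (f : X ⟶ Y) (x : X) (a : Γ(Y, ⊤)) :
    X.presheaf.germ ⊤ x trivial (f.appTop a) = f.stalkMap x (Y.presheaf.germ ⊤ (f x) trivial a) := by
  have h := Scheme.Hom.germ_stalkMap f ⊤ x trivial
  exact (congrArg (fun k => k a) h).symm

theorem germ_mem_maximalIdeal {X : Scheme.{u}} (x : X) (a : Γ(X, ⊤)) :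
    X.presheaf.germ ⊤ x trivial a ∈ maximalIdeal (X.presheaf.stalk x) ↔ x ∉ X.basicOpen a := by
  rw [Scheme.mem_basicOpen_top, mem_maximalIdeal, mem_nonunits_iff]

section aff

variable {T W : Scheme.{u}} [IsAffine T] [IsAffine W] (s : W ⟶ T) (f : Γ(W, ⊤))
  (he : Etale (AffineSpace.homOfVector s (fun _ : PUnit.{u+1} => f))) (w : W)

include he in
theorem germ_ne_zero_aff : W.presheaf.germ ⊤ w trivial f ≠ 0 := by
  have het := H411.Chart.etale_eval₂Hom_of_isAffine s _ he
  let φ := MvPolynomial.eval₂Hom s.appTop.hom (fun _ : PUnit.{u+1} => f)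
  let _ : Algebra (MvPolynomial PUnit.{u+1} Γ(T, ⊤)) Γ(W, ⊤) := φ.toAlgebra
  have : Algebra.Etale (MvPolynomial PUnit.{u+1} Γ(T, ⊤)) Γ(W, ⊤) := het
  let _ : Algebra Γ(W, ⊤) (W.presheaf.stalk w) := (W.presheaf.germ ⊤ w trivial).hom.toAlgebra
  have hloc : IsLocalization.AtPrime (W.presheaf.stalk w) ((isAffineOpen_top W).primeIdealOf ⟨w, trivial⟩).asIdeal :=
    (isAffineOpen_top W).isLocalization_stalk ⟨w, trivial⟩
  let _ : Algebra (MvPolynomial PUnit.{u+1} Γ(T, ⊤)) (W.presheaf.stalk w) :=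
    ((algebraMap Γ(W, ⊤) (W.presheaf.stalk w)).comp φ).toAlgebra
  have : IsScalarTower (MvPolynomial PUnit.{u+1} Γ(T, ⊤)) Γ(W, ⊤) (W.presheaf.stalk w) :=
    IsScalarTower.of_algebraMap_eq' rfl
  have hfl1 : Module.Flat Γ(W, ⊤) (W.presheaf.stalk w) :=
    IsLocalization.flat _ ((isAffineOpen_top W).primeIdealOf ⟨w, trivial⟩).asIdeal.primeCompl
  have hfl : Module.Flat (MvPolynomial PUnit.{u+1} Γ(T, ⊤)) (W.presheaf.stalk w) :=
    Module.Flat.trans _ Γ(W, ⊤) _
  intro h0
  have h1 : IsSMulRegular (W.presheaf.stalk w) (MvPolynomial.X PUnit.unit : MvPolynomial PUnit.{u+1} Γ(T, ⊤)) :=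
    Module.Flat.isSMulRegular_of_nonZeroDivisors (H404.AlgCore.X_mem_nonZeroDivisors _)
  have h2 : algebraMap (MvPolynomial PUnit.{u+1} Γ(T, ⊤)) (W.presheaf.stalk w) (MvPolynomial.X PUnit.unit) = 0 := by
    change W.presheaf.germ ⊤ w trivial (φ (MvPolynomial.X PUnit.unit)) = _
    rw [MvPolynomial.coe_eval₂Hom, MvPolynomial.eval₂_X, h0]
  have h3 : (1 : W.presheaf.stalk w) = 0 := by
    apply h1
    simp only [Algebra.smul_def]
    rw [h2, zero_mul, zero_mul]
  exact one_ne_zero h3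

include he in
theorem eq_zero_aff [IsDomain Γ(T, ⊤)] [IsNoetherianRing (W.presheaf.stalk w)] (hw : w ∉ W.basicOpen f)
    (hdim : ringKrullDim (W.presheaf.stalk w) ≤ 1) (a : Γ(T, ⊤)) (ha : s w ∉ T.basicOpen a) : a = 0 := by
  have het := H411.Chart.etale_eval₂Hom_of_isAffine s _ he
  let φ := MvPolynomial.eval₂Hom s.appTop.hom (fun _ : PUnit.{u+1} => f)
  let _ : Algebra (MvPolynomial PUnit.{u+1} Γ(T, ⊤)) Γ(W, ⊤) := φ.toAlgebra
  have : Algebra.Etale (MvPolynomial PUnit.{u+1} Γ(T, ⊤)) Γ(W, ⊤) := het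
  let _ : Algebra Γ(W, ⊤) (W.presheaf.stalk w) := (W.presheaf.germ ⊤ w trivial).hom.toAlgebra
  have hloc : IsLocalization.AtPrime (W.presheaf.stalk w) ((isAffineOpen_top W).primeIdealOf ⟨w, trivial⟩).asIdeal :=
    (isAffineOpen_top W).isLocalization_stalk ⟨w, trivial⟩
  let _ : Algebra (MvPolynomial PUnit.{u+1} Γ(T, ⊤)) (W.presheaf.stalk w) :=
    ((algebraMap Γ(W, ⊤) (W.presheaf.stalk w)).comp φ).toAlgebra
  have : IsScalarTower (MvPolynomial PUnit.{u+1} Γ(T, ⊤)) Γ(W, ⊤) (W.presheaf.stalk w) :=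
    IsScalarTower.of_algebraMap_eq' rfl
  have hfl1 : Module.Flat Γ(W, ⊤) (W.presheaf.stalk w) :=
    IsLocalization.flat _ ((isAffineOpen_top W).primeIdealOf ⟨w, trivial⟩).asIdeal.primeCompl
  have hfl : Module.Flat (MvPolynomial PUnit.{u+1} Γ(T, ⊤)) (W.presheaf.stalk w) :=
    Module.Flat.trans _ Γ(W, ⊤) _
  refine ChartDvr.eq_zero_of_mem (A := Γ(T, ⊤)) (O := W.presheaf.stalk w) hdim ?_ ?_
  · change W.presheaf.germ ⊤ w trivial (φ (MvPolynomial.X PUnit.unit)) ∈ _
    rw [MvPolynomial.coe_eval₂Hom, MvPolynomial.eval₂_X, germ_mem_maximalIdeal]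
    exact hw
  · change W.presheaf.germ ⊤ w trivial (φ (MvPolynomial.C a)) ∈ _
    rw [MvPolynomial.coe_eval₂Hom, MvPolynomial.eval₂_C]
    refine (germ_mem_maximalIdeal w (s.appTop a)).mpr ?_
    rwa [mem_basicOpen_appTop]

include he in
theorem maximalIdeal_eq_aff (hw : w ∉ W.basicOpen f) (ha : ∀ a : Γ(T, ⊤), s w ∉ T.basicOpen a → a = 0) :
    maximalIdeal (W.presheaf.stalk w) = Ideal.span {W.presheaf.germ ⊤ w trivial f} := by
  have het := H411.Chart.etale_eval₂Hom_of_isAffine s _ he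
  let φ := MvPolynomial.eval₂Hom s.appTop.hom (fun _ : PUnit.{u+1} => f)
  let _ : Algebra (MvPolynomial PUnit.{u+1} Γ(T, ⊤)) Γ(W, ⊤) := φ.toAlgebra
  have : Algebra.Etale (MvPolynomial PUnit.{u+1} Γ(T, ⊤)) Γ(W, ⊤) := het
  let _ : Algebra Γ(W, ⊤) (W.presheaf.stalk w) := (W.presheaf.germ ⊤ w trivial).hom.toAlgebra
  have hloc : IsLocalization.AtPrime (W.presheaf.stalk w) ((isAffineOpen_top W).primeIdealOf ⟨w, trivial⟩).asIdeal :=
    (isAffineOpen_top W).isLocalization_stalk ⟨w, trivial⟩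
  have hmem : ∀ b : Γ(W, ⊤), b ∈ ((isAffineOpen_top W).primeIdealOf ⟨w, trivial⟩).asIdeal ↔ w ∉ W.basicOpen b := by
    intro b
    rw [← germ_mem_maximalIdeal]
    exact (IsLocalization.AtPrime.to_map_mem_maximal_iff (W.presheaf.stalk w) _ b).symm
  have h := ChartDvr.maximalIdeal_eq (A := Γ(T, ⊤)) (B := Γ(W, ⊤)) (q := ((isAffineOpen_top W).primeIdealOf ⟨w, trivial⟩).asIdeal)
    (by
      rw [hmem]
      change w ∉ W.basicOpen (φ (MvPolynomial.X PUnit.unit))
      rwa [MvPolynomial.coe_eval₂Hom, MvPolynomial.eval₂_X]) 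
    (by
      intro a h
      rw [hmem] at h
      apply ha
      change w ∉ W.basicOpen (φ (MvPolynomial.C a)) at h
      rw [MvPolynomial.coe_eval₂Hom, MvPolynomial.eval₂_C] at h
      intro h2
      exact h ((mem_basicOpen_appTop s a w).mpr h2)) (W.presheaf.stalk w)
  rw [h]
  congr 2
  change W.presheaf.germ ⊤ w trivial (φ (MvPolynomial.X PUnit.unit)) = _
  rw [MvPolynomial.coe_eval₂Hom, MvPolynomial.eval₂_X]

end aff

section gen

variable {T W : Scheme.{u}} [IsAffine T] (s : W ⟶ T) (f : Γ(W, ⊤))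
  (he : Etale (AffineSpace.homOfVector s (fun _ : PUnit.{u+1} => f)))

omit [IsAffine T] in
include he in
theorem etale_restrict (V : W.Opens) :
    Etale (AffineSpace.homOfVector (V.ι ≫ s) (fun _ : PUnit.{u+1} => V.ι.appTop f)) := by
  have h := H413.SecChart.etale_homOfVector_restrict s (V.ι ≫ s) V.ι (𝟙 T) (by simp)
    (fun _ : PUnit.{u+1} => f)
  exact h

include he in
/-- A point of codimension at most one on the zero locus of an étale coordinate lies over the generic point. -/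
theorem eq_zero [IsDomain Γ(T, ⊤)] [IsLocallyNoetherian W] (w : W) (hw : w ∉ W.basicOpen f)
    (hdim : ringKrullDim (W.presheaf.stalk w) ≤ 1) (a : Γ(T, ⊤)) (ha : s w ∉ T.basicOpen a) : a = 0 := by
  obtain ⟨V, hV, hwV, -⟩ := exists_isAffineOpen_mem_and_subset (X := W) (x := w) (U := ⊤) trivial
  have : IsAffine V.toScheme := hV
  let v : V.toScheme := ⟨w, hwV⟩
  let ε := (asIso (V.ι.stalkMap v)).commRingCatIsoToRingEquiv
  refine eq_zero_aff (V.ι ≫ s) _ (etale_restrict s f he V) v ?_ ?_ a ?_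
  · rw [mem_basicOpen_appTop]
    exact hw
  · rw [← ringKrullDim_eq_of_ringEquiv ε]
    exact hdim
  · exact ha

include he in
/-- At a point of the zero locus of an étale coordinate over the generic point of the base, the maximal ideal is
generated by the coordinate. -/
theorem maximalIdeal_eq (w : W) (hw : w ∉ W.basicOpen f) (ha : ∀ a : Γ(T, ⊤), s w ∉ T.basicOpen a → a = 0) :
    maximalIdeal (W.presheaf.stalk w) = Ideal.span {W.presheaf.germ ⊤ w trivial f} := by
  obtain ⟨V, hV, hwV, -⟩ := exists_isAffineOpen_mem_and_subset (X := W) (x := w) (U := ⊤) trivial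
  have : IsAffine V.toScheme := hV
  let v : V.toScheme := ⟨w, hwV⟩
  let ε := (asIso (V.ι.stalkMap v)).commRingCatIsoToRingEquiv
  have h := maximalIdeal_eq_aff (V.ι ≫ s) _ (etale_restrict s f he V) v
    (by rw [mem_basicOpen_appTop]; exact hw) ha
  rw [germ_top_appTop] at h
  have h2 : maximalIdeal (W.presheaf.stalk w) = (maximalIdeal (V.toScheme.presheaf.stalk v)).map ε.symm :=
    (IsLocalRing.eq_maximalIdeal (Ideal.map_isMaximal_of_equiv ε.symm)).symm
  rw [h2, h, Ideal.map_span, Set.image_singleton]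
  congr 2
  exact ε.symm_apply_apply _

include he in
theorem germ_ne_zero (w : W) : W.presheaf.germ ⊤ w trivial f ≠ 0 := by
  obtain ⟨V, hV, hwV, -⟩ := exists_isAffineOpen_mem_and_subset (X := W) (x := w) (U := ⊤) trivial
  have : IsAffine V.toScheme := hV
  let v : V.toScheme := ⟨w, hwV⟩
  have h := germ_ne_zero_aff (V.ι ≫ s) _ (etale_restrict s f he V) v
  rw [germ_top_appTop] at h
  intro h0
  apply h
  have h1 : W.presheaf.germ ⊤ (V.ι v) trivial f = 0 := h0
  rw [h1, map_zero]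

include he in
/-- The local ring at a point of the zero locus of an étale coordinate over the generic point of the base is a discrete
valuation ring with the coordinate as uniformizer. -/
theorem isDiscreteValuationRing [IsLocallyNoetherian W] (w : W) (hw : w ∉ W.basicOpen f)
    (ha : ∀ a : Γ(T, ⊤), s w ∉ T.basicOpen a → a = 0) [IsDomain (W.presheaf.stalk w)] :
    IsDiscreteValuationRing (W.presheaf.stalk w) := by
  have h := maximalIdeal_eq s f he w hw ha
  have hne := germ_ne_zero s f he w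
  have hnf : ¬ IsField (W.presheaf.stalk w) := by
    rw [isField_iff_maximalIdeal_eq, h, Ideal.span_singleton_eq_bot]
    exact hne
  refine ((IsDiscreteValuationRing.TFAE (W.presheaf.stalk w) hnf).out 0 4).mpr ?_
  exact ⟨⟨_, h⟩⟩

include he in
theorem irreducible [IsLocallyNoetherian W] (w : W) (hw : w ∉ W.basicOpen f)
    (ha : ∀ a : Γ(T, ⊤), s w ∉ T.basicOpen a → a = 0) [IsDomain (W.presheaf.stalk w)]
    [IsDiscreteValuationRing (W.presheaf.stalk w)] : Irreducible (W.presheaf.germ ⊤ w trivial f) :=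
  (IsDiscreteValuationRing.irreducible_iff_uniformizer _).mpr (maximalIdeal_eq s f he w hw ha)

end gen

end Groth.Agent.Pi1.H384.ChartDvrSch
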