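import Mathlib.AlgebraicGeometry.SpreadingOut
import Mathlib.AlgebraicGeometry.Noetherian
import Groth.Agent.Pi1A.ClopenCrit
import Groth.Agent.Ega4dA.SmoothStalk
import Groth.Agent.Pi1.H413.SecChart
import Groth.Agent.Pi1.H384.DenseCoord

/-!
# Full faithfulness of restriction to the complement of the zeros of an étale coordinate

`exists_isClopen` : clopen subsets of an open subscheme of `T` extend to clopen subsets of `T`, if at each point of
the complement `T` is germ-injective with a domain as local ring and the open is dense.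

`restrict_fullyFaithful` : `T` a normal locally Noetherian scheme, `j : E' → X'` an open immersion,
`s : E' → T` and `z : Γ(E')` such that `(s, z) : E' → 𝔸¹_T` is étale; `U'` the complement in `X'` of the zeros of `z` in
`E'`.  Then restriction of finite étale covers from `X'` to `U'` is fully faithful.
-/

set_option autoImplicit false
universe u

open CategoryTheory CategoryTheory.Limits AlgebraicGeometry TopologicalSpace

namespace Groth.Agent.Pi1.H384.ChartFF

/-- Clopen subsets of a dense open subscheme extend to clopen subsets, if at the points outside the open the ambient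
scheme is germ-injective with a domain as local ring. -/
theorem exists_isClopen {P T : Scheme.{u}} (j : P ⟶ T) [IsOpenImmersion j] (hd : DenseRange j)
    (hT : ∀ t : T, t ∉ Set.range j → T.IsGermInjectiveAt t ∧ IsDomain (T.presheaf.stalk t)) (V : Set P)
    (hV : IsClopen V) : ∃ C : Set T, IsClopen C ∧ j ⁻¹' C = V := by
  have hA : IsOpen (j '' V) := j.isOpenEmbedding.isOpenMap _ hV.isOpen
  have hB : IsOpen (j '' Vᶜ) := j.isOpenEmbedding.isOpenMap _ hV.compl.isOpen
  have hdisj : Disjoint (j '' V) (j '' Vᶜ) :=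
    (Set.disjoint_image_iff j.isOpenEmbedding.injective).mpr disjoint_compl_right
  have hunion : closure (j '' V) ∪ closure (j '' Vᶜ) = Set.univ := by
    rw [← closure_union, ← Set.image_union, Set.union_compl_self, Set.image_univ]
    exact hd.closure_range
  have hinter : closure (j '' V) ∩ closure (j '' Vᶜ) = ∅ := by
    by_contra hne
    obtain ⟨t, ht1, ht2⟩ := Set.nonempty_iff_ne_empty.mpr hne
    by_cases htr : t ∈ Set.range j
    · obtain ⟨p, rfl⟩ := htr
      by_cases hp : p ∈ V
      · obtain ⟨b, hb1, hb2⟩ := mem_closure_iff.mp ht2 _ hA ⟨p, hp, rfl⟩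
        exact Set.disjoint_left.mp hdisj hb1 hb2
      · obtain ⟨b, hb1, hb2⟩ := mem_closure_iff.mp ht1 _ hB ⟨p, hp, rfl⟩
        exact Set.disjoint_left.mp hdisj hb2 hb1
    · obtain ⟨hg, hdo⟩ := hT t htr
      obtain ⟨T₀, htT, hT₀, hinj⟩ := T.exists_germ_injective t
      have hdom : IsDomain Γ(T, T₀) := hinj.isDomain (T.presheaf.germ T₀ t htT).hom
      have hirr : IsPreirreducible (T₀ : Set T) := by
        rw [← hT₀.range_fromSpec, ← Set.image_univ]
        exact (PreirreducibleSpace.isPreirreducible_univ (X := PrimeSpectrum Γ(T, T₀))).image _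
          hT₀.fromSpec.continuous.continuousOn
      obtain ⟨a, ha1, ha2⟩ := mem_closure_iff.mp ht1 T₀ T₀.2 htT
      obtain ⟨b, hb1, hb2⟩ := mem_closure_iff.mp ht2 T₀ T₀.2 htT
      obtain ⟨c, hc1, hc2⟩ := hirr _ _ hA hB ⟨a, ha1, ha2⟩ ⟨b, hb1, hb2⟩
      exact Set.disjoint_iff.mp hdisj hc2
  have hcompl : closure (j '' V) = (closure (j '' Vᶜ))ᶜ := by
    ext t
    constructor
    · intro h1 h2
      exact (Set.ext_iff.mp hinter t).mp ⟨h1, h2⟩
    · intro h1
      have := (Set.ext_iff.mp hunion t).mpr trivial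
      exact this.resolve_right h1
  refine ⟨closure (j '' V), ⟨isClosed_closure, ?_⟩, ?_⟩
  · rw [hcompl]; exact isClosed_closure.isOpen_compl
  · ext p
    constructor
    · intro hp
      by_contra hpV
      have : j p ∈ closure (j '' V) ∩ closure (j '' Vᶜ) := ⟨hp, subset_closure ⟨p, hpV, rfl⟩⟩
      rw [hinter] at this
      exact this
    · intro hp
      exact subset_closure ⟨p, hp, rfl⟩

/-- General criterion: `U ⊆ X` open such that for all étale `Z → X` the preimage of `U` is dense and at the points
outside it `Z` is germ-injective with a domain as local ring. -/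
theorem restrict_fullyFaithful_of_stalks {X : Scheme.{u}} (U : X.Opens) (hU : Dense (U : Set X))
    (hs : ∀ (Z : FEt.Cat X) (z : Z.left), Z.hom z ∉ U →
      Z.left.IsGermInjectiveAt z ∧ IsDomain (Z.left.presheaf.stalk z)) :
    (FEt.restrict U.ι).Full ∧ (FEt.restrict U.ι).Faithful := by
  have hrange : ∀ T : FEt.Cat X, Set.range (pullback.fst T.hom U.ι) = T.hom ⁻¹' (U : Set X) := by
    intro T
    have hr : Set.range (pullback.fst T.hom U.ι) = T.hom ⁻¹' Set.range U.ι :=
      IsOpenImmersion.range_pullbackFst _ _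
    rw [hr]
    simp
  have hdom : ∀ T : FEt.Cat X, DenseRange (pullback.fst T.hom U.ι) := by
    intro T
    have hT : IsOpenMap T.hom := T.hom.isOpenMap
    have hd := Dense.preimage hU hT
    rw [DenseRange, hrange]
    exact hd
  refine Groth.Agent.Pi1A.ClopenCrit.restrict_fullyFaithful_of_isClopen U.ι ?_ ?_
  · intro T C hC hemp
    by_contra hne
    obtain ⟨c, hc⟩ := Set.nonempty_iff_ne_empty.mpr hne
    obtain ⟨p, hp⟩ := (hdom T).exists_mem_open hC.isOpen ⟨c, hc⟩
    exact (Set.ext_iff.mp hemp p).mp hp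
  · intro T V hV
    refine exists_isClopen (pullback.fst T.hom U.ι) (hdom T) ?_ V hV
    intro t ht
    rw [hrange] at ht
    exact hs T t ht

/-- **(K4)** -/
theorem restrict_fullyFaithful {T X' E' : Scheme.{u}} [IsLocallyNoetherian T]
    (hT : Pi1.IsNormalScheme T) (j : E' ⟶ X') [IsOpenImmersion j] (s : E' ⟶ T) (z : Γ(E', ⊤))
    (he : Etale (AffineSpace.homOfVector s (fun _ : PUnit.{u+1} => z))) (U' : X'.Opens)
    (hU' : ∀ x : X', x ∉ U' ↔ ∃ e : E', j e = x ∧ e ∉ E'.basicOpen z) :
    (FEt.restrict U'.ι).Full ∧ (FEt.restrict U'.ι).Faithful := by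
  have hdense : Dense (U' : Set X') := by
    intro x
    by_cases hx : x ∈ U'
    · exact subset_closure hx
    · obtain ⟨e, rfl, he'⟩ := (hU' x).mp hx
      rw [mem_closure_iff]
      intro N hN heN
      obtain ⟨e1, he1, he2⟩ := mem_closure_iff.mp
        (DenseCoord.dense_of_etale s (fun _ : PUnit.{u+1} => z) he PUnit.unit e)
        (j ⁻¹' N) (hN.preimage j.continuous) heN
      refine ⟨j e1, he1, ?_⟩
      by_contra hcon
      obtain ⟨e2, he3, he4⟩ := (hU' (j e1)).mp hcon
      have : e2 = e1 := j.isOpenEmbedding.injective he3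
      subst this
      exact he4 he2
  have hsm : Smooth s := by
    have h1 : Smooth (𝔸(PUnit.{u+1}; T) ↘ T) := H413.SecChart.smooth_affineSpace _ _
    have h2 : Smooth (AffineSpace.homOfVector s (fun _ : PUnit.{u+1} => z) ≫ 𝔸(PUnit.{u+1}; T) ↘ T) :=
      inferInstance
    rwa [AffineSpace.homOfVector_over] at h2
  refine restrict_fullyFaithful_of_stalks U' hdense ?_
  intro Z t ht
  obtain ⟨e, he1, -⟩ := (hU' (Z.hom t)).mp ht
  have hZ : Etale Z.hom := Z.prop.2
  obtain ⟨t', ht', -⟩ := Scheme.Pullback.exists_preimage_pullback (f := Z.hom) (g := j) t e he1.symm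
  have hsm2 : Smooth (pullback.snd Z.hom j ≫ s) := inferInstance
  have hN : IsLocallyNoetherian (pullback Z.hom j) :=
    LocallyOfFiniteType.isLocallyNoetherian (pullback.snd Z.hom j ≫ s)
  have hdom : IsDomain ((pullback Z.hom j).presheaf.stalk t') :=
    (Ega4dA.SmoothStalk.stalk_of_smooth hT (pullback.snd Z.hom j ≫ s) t').1
  subst ht'
  refine ⟨inferInstance, ?_⟩
  exact (asIso ((pullback.fst Z.hom j).stalkMap t')).commRingCatIsoToRingEquiv.toMulEquiv.isDomain _

end Groth.Agent.Pi1.H384.ChartFF
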