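import Groth.Agent.Pi1.H384.KumExtSpec
import Groth.Agent.Pi1.H385.NKum

/-!
# The extension theorem for packaged Kummer data
-/

set_option autoImplicit false
universe u

open CategoryTheory CategoryTheory.Limits AlgebraicGeometry

namespace Groth.Agent.Pi1.H384.ExtData

open Groth.Agent.Pi1.H385.NKum

/-- Principal covers of order dividing `N` extend over the Kummer modification. -/
theorem ext (A : Type u) [CommRing A] [IsDomain A] [IsPrincipalIdealRing A] {X : Scheme.{u}}
    (p : X ⟶ Spec (CommRingCat.of A)) (U : X.Opens) (N : ℕ) (D : NData p U N)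
    [LocallyOfFiniteType (D.π ≫ p)] {G : Type} [Group G] [Finite G] (P : FEt.Cat (U : Scheme.{u}))
    (ρ : G →* Aut P) (hP : SGA1t.IsPrincipal G P ρ) (hG : Nat.card G ∣ N) (hN : N ≠ 0)
    (hNA : IsUnit ((N : ℕ) : A)) :
    ∃ Y : FEt.Cat D.X', Nonempty ((FEt.restrict (D.π ⁻¹ᵁ U).ι).obj Y ≅
      (FEt.restrict (D.π ∣_ U)).obj P) := by
  have := D.isOpenImmersion_j
  exact KumExtSpec.exists_extension A p D.π D.W D.f D.etW D.j D.q D.sq D.z D.z_pow D.etE U D.hU P ρ hP
    hG hN hNA

end Groth.Agent.Pi1.H384.ExtData
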