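import Groth.Agent.Fdesc.GeomIrred
import Mathlib.AlgebraicGeometry.Geometrically.Connected
import Mathlib.AlgebraicGeometry.Morphisms.Flat
import Mathlib.FieldTheory.IsAlgClosed.Basic

/-!
# Connected schemes over algebraically closed fields are geometrically connected
-/

set_option autoImplicit false

universe u

open CategoryTheory CategoryTheory.Limits AlgebraicGeometry

namespace Groth.Agent.Pi1.H384.GeomConn

/-- Geometrically irreducible morphisms are geometrically connected. -/
theorem geometricallyConnected_of_geometricallyIrreducible {X Y : Scheme.{u}} (f : X ⟶ Y)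
    [h : GeometricallyIrreducible f] : GeometricallyConnected f := by
  refine ⟨fun K _ y Z fst snd hp => ?_⟩
  have := h.geometrically_irreducibleSpace y fst snd hp
  infer_instance

/-- Base change along a flat quasi-compact geometrically connected morphism preserves
connectedness. -/
theorem connectedSpace_pullback {X S T : Scheme.{u}} (f : X ⟶ S) (g : T ⟶ S) [ConnectedSpace X]
    [GeometricallyConnected g] [Flat g] [QuasiCompact g] : ConnectedSpace ↥(pullback f g) := by
  have hq : Topology.IsQuotientMap (pullback.fst f g) :=
    Flat.isQuotientMap_of_surjective (pullback.fst f g)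
  have h1 := hq.isCoinducing.isConnected_preimage_of_isClosed
    (fun x => Scheme.Hom.isConnected_preimage_singleton (pullback.fst f g) x) isClosed_univ
    isConnected_univ
  rw [Set.preimage_univ] at h1
  exact connectedSpace_iff_univ.mpr h1

/-- Connected schemes over an algebraically closed field are geometrically connected. -/
theorem geometricallyConnected {k : Type u} [Field k] [IsAlgClosed k] {X : Scheme.{u}}
    (f : X ⟶ Spec (CommRingCat.of k)) [ConnectedSpace X] : GeometricallyConnected f := by
  refine ⟨fun K _ y Z fst snd hp => ?_⟩
  obtain ⟨φ, rfl⟩ := Spec.map_surjective y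
  let _ : Algebra k K := φ.hom.toAlgebra
  have h1 : GeometricallyIrreducible (Spec.map φ) :=
    Groth.Agent.Fdesc.GeomIrred.geometricallyIrreducible_specMap_of_isAlgClosed (k := k) (A := K)
  have h2 : GeometricallyConnected (Spec.map φ) :=
    geometricallyConnected_of_geometricallyIrreducible _
  have h3 : Flat (Spec.map φ) := inferInstance
  have h4 : QuasiCompact (Spec.map φ) := inferInstance
  have h5 : ConnectedSpace ↥(pullback f (Spec.map φ)) := connectedSpace_pullback f (Spec.map φ)
  exact (hp.isoPullback.hom.homeomorph.connectedSpace_iff).mpr h5

end Groth.Agent.Pi1.H384.GeomConn
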