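import Groth.Agent.Pi1A.FEtAffine
import Groth.Agent.Sga3C.LocConn
import Mathlib.AlgebraicGeometry.Gluing

/-!
# Isomorphisms of finite étale covers over disjoint open covers
-/

set_option autoImplicit false

universe u

open CategoryTheory CategoryTheory.Limits AlgebraicGeometry
open Groth.Agent.Pi1A.FEtAffine

namespace Groth.Agent.Pi1.H384.GlueDisj

variable {X : Scheme.{u}}

/-- The open cover of `A.left` induced by an open cover of `X`. -/
noncomputable abbrev cov (𝒰 : Scheme.OpenCover.{u} X) (A : FEt.Cat X) : Scheme.OpenCover.{u} A.left :=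
  𝒰.pullback₁ A.hom

/-- Morphisms from a cover are determined locally. -/
theorem hom_ext_cov (𝒰 : Scheme.OpenCover.{u} X) {A A' : FEt.Cat X} {a b : A ⟶ A'}
    (h : ∀ i, proj (𝒰.f i) A ≫ a.left = proj (𝒰.f i) A ≫ b.left) : a = b := by
  apply MorphismProperty.Over.Hom.ext
  exact (cov 𝒰 A).hom_ext _ _ h

/-- The glued morphism. -/
theorem exists_glue (𝒰 : Scheme.OpenCover.{u} X)
    (hdisj : ∀ i j, i ≠ j → IsEmpty ↥(pullback (𝒰.f i) (𝒰.f j))) (A A' : FEt.Cat X)
    (e : ∀ i, (FEt.restrict (𝒰.f i)).obj A ⟶ (FEt.restrict (𝒰.f i)).obj A') :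
    ∃ Φ : A ⟶ A', ∀ i, proj (𝒰.f i) A ≫ Φ.left = (e i).left ≫ proj (𝒰.f i) A' := by
  let g (i : 𝒰.I₀) : ((FEt.restrict (𝒰.f i)).obj A).left ⟶ A'.left := (e i).left ≫ proj (𝒰.f i) A'
  have hg (i : 𝒰.I₀) : g i ≫ A'.hom = proj (𝒰.f i) A ≫ A.hom := by
    have h1 : proj (𝒰.f i) A' ≫ A'.hom = ((FEt.restrict (𝒰.f i)).obj A').hom ≫ 𝒰.f i :=
      (isPullback (𝒰.f i) A').w
    have h2 : (e i).left ≫ ((FEt.restrict (𝒰.f i)).obj A').hom =
      ((FEt.restrict (𝒰.f i)).obj A).hom := hom_w (e i)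
    have h3 : proj (𝒰.f i) A ≫ A.hom = ((FEt.restrict (𝒰.f i)).obj A).hom ≫ 𝒰.f i :=
      (isPullback (𝒰.f i) A).w
    exact (Category.assoc _ _ _).trans ((congrArg ((e i).left ≫ ·) h1).trans
      ((Category.assoc _ _ _).symm.trans ((congrArg (· ≫ 𝒰.f i) h2).trans h3.symm)))
  have hcompat (i j : 𝒰.I₀) : pullback.fst (proj (𝒰.f i) A) (proj (𝒰.f j) A) ≫ g i =
      pullback.snd (proj (𝒰.f i) A) (proj (𝒰.f j) A) ≫ g j := by
    by_cases hij : i = j
    · subst hij
      have h0 : Mono (proj (𝒰.f i) A) := inferInstanceAs (Mono ((cov 𝒰 A).f i))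
      have h1 : pullback.fst (proj (𝒰.f i) A) (proj (𝒰.f i) A) =
          pullback.snd (proj (𝒰.f i) A) (proj (𝒰.f i) A) := by
        rw [← cancel_mono (proj (𝒰.f i) A)]
        exact pullback.condition
      rw [h1]
    · have h1 := hdisj i j hij
      let a := pullback.fst (proj (𝒰.f i) A) (proj (𝒰.f j) A)
      let b := pullback.snd (proj (𝒰.f i) A) (proj (𝒰.f j) A)
      have hab : a ≫ proj (𝒰.f i) A = b ≫ proj (𝒰.f j) A := pullback.condition
      have ha : proj (𝒰.f i) A ≫ A.hom = ((FEt.restrict (𝒰.f i)).obj A).hom ≫ 𝒰.f i :=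
        (isPullback (𝒰.f i) A).w
      have hb : proj (𝒰.f j) A ≫ A.hom = ((FEt.restrict (𝒰.f j)).obj A).hom ≫ 𝒰.f j :=
        (isPullback (𝒰.f j) A).w
      have hw : (a ≫ ((FEt.restrict (𝒰.f i)).obj A).hom) ≫ 𝒰.f i =
          (b ≫ ((FEt.restrict (𝒰.f j)).obj A).hom) ≫ 𝒰.f j :=
        (Category.assoc _ _ _).trans ((congrArg (a ≫ ·) ha.symm).trans
          ((Category.assoc _ _ _).symm.trans ((congrArg (· ≫ A.hom) hab).trans
            ((Category.assoc _ _ _).trans ((congrArg (b ≫ ·) hb).trans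
              (Category.assoc _ _ _).symm)))))
      have h2 : IsEmpty ↥(pullback (proj (𝒰.f i) A) (proj (𝒰.f j) A)) :=
        Function.isEmpty (pullback.lift _ _ hw)
      exact isInitialOfIsEmpty.hom_ext _ _
  have hΦ : (cov 𝒰 A).glueMorphisms g hcompat ≫ A'.hom = A.hom := by
    apply (cov 𝒰 A).hom_ext
    intro i
    rw [← Category.assoc]
    exact (congrArg (· ≫ A'.hom) ((cov 𝒰 A).ι_glueMorphisms g hcompat i)).trans (hg i)
  refine ⟨MorphismProperty.Over.homMk ((cov 𝒰 A).glueMorphisms g hcompat) hΦ, fun i => ?_⟩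
  exact (cov 𝒰 A).ι_glueMorphisms g hcompat i

/-- Isomorphisms glue over disjoint open covers. -/
theorem nonempty_iso_of_disjoint (𝒰 : Scheme.OpenCover.{u} X)
    (hdisj : ∀ i j, i ≠ j → IsEmpty ↥(pullback (𝒰.f i) (𝒰.f j))) (A A' : FEt.Cat X)
    (h : ∀ i, Nonempty ((FEt.restrict (𝒰.f i)).obj A ≅ (FEt.restrict (𝒰.f i)).obj A')) :
    Nonempty (A ≅ A') := by
  let e (i) := (h i).some
  obtain ⟨Φ, hΦ⟩ := exists_glue 𝒰 hdisj A A' (fun i => (e i).hom)
  obtain ⟨Ψ, hΨ⟩ := exists_glue 𝒰 hdisj A' A (fun i => (e i).inv)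
  have h1 (i) : (e i).hom.left ≫ (e i).inv.left = 𝟙 _ := congr($((e i).hom_inv_id).left)
  have h2 (i) : (e i).inv.left ≫ (e i).hom.left = 𝟙 _ := congr($((e i).inv_hom_id).left)
  refine ⟨⟨Φ, Ψ, hom_ext_cov 𝒰 fun i => ?_, hom_ext_cov 𝒰 fun i => ?_⟩⟩
  · change proj (𝒰.f i) A ≫ Φ.left ≫ Ψ.left = proj (𝒰.f i) A ≫ 𝟙 _
    rw [reassoc_of% (hΦ i), hΨ i, reassoc_of% (h1 i), Category.comp_id]
  · change proj (𝒰.f i) A' ≫ Ψ.left ≫ Φ.left = proj (𝒰.f i) A' ≫ 𝟙 _
    rw [reassoc_of% (hΨ i), hΦ i, reassoc_of% (h2 i), Category.comp_id]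

/-- Over a locally Noetherian scheme, isomorphy of finite étale covers can be checked on the
connected components. -/
theorem nonempty_iso_of_components [IsLocallyNoetherian X] (A A' : FEt.Cat X)
    (h : ∀ U : X.Opens, ConnectedSpace U →
      Nonempty ((FEt.restrict U.ι).obj A ≅ (FEt.restrict U.ι).obj A')) :
    Nonempty (A ≅ A') := by
  have hlc := Groth.Agent.Sga3C.LocConn.locallyConnectedSpace_of_isLocallyNoetherian X
  let U (c : ConnectedComponents X) : X.Opens :=
    ⟨ConnectedComponents.mk ⁻¹' {c}, by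
      obtain ⟨x, rfl⟩ := ConnectedComponents.surjective_coe c
      rw [connectedComponents_preimage_singleton]
      exact isOpen_connectedComponent⟩
  have hU : TopologicalSpace.IsOpenCover U := by
    rw [TopologicalSpace.IsOpenCover, eq_top_iff]
    intro x _
    rw [TopologicalSpace.Opens.mem_iSup]
    exact ⟨ConnectedComponents.mk x, rfl⟩
  let 𝒰 : Scheme.OpenCover.{u} X := X.openCoverOfIsOpenCover U hU
  refine nonempty_iso_of_disjoint 𝒰 ?_ A A' ?_
  · intro c d hcd
    constructor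
    intro z
    apply hcd
    have h1 : (U c).ι (pullback.fst (U c).ι (U d).ι z) = (U d).ι (pullback.snd (U c).ι (U d).ι z) := by
      rw [← Scheme.Hom.comp_apply, pullback.condition, Scheme.Hom.comp_apply]
    have h2 : ConnectedComponents.mk ((U c).ι (pullback.fst (U c).ι (U d).ι z)) = c :=
      (pullback.fst (U c).ι (U d).ι z).2
    have h3 : ConnectedComponents.mk ((U d).ι (pullback.snd (U c).ι (U d).ι z)) = d :=
      (pullback.snd (U c).ι (U d).ι z).2
    exact h2.symm.trans ((congrArg ConnectedComponents.mk h1).trans h3)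
  · intro c
    apply h (U c)
    have h1 : _root_.IsConnected (U c : Set X) := by
      obtain ⟨x, rfl⟩ := ConnectedComponents.surjective_coe c
      change _root_.IsConnected (ConnectedComponents.mk ⁻¹' {ConnectedComponents.mk x})
      rw [connectedComponents_preimage_singleton]
      exact isConnected_connectedComponent
    exact isConnected_iff_connectedSpace.mp h1

end Groth.Agent.Pi1.H384.GlueDisj
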