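import Mathlib.RingTheory.DedekindDomain.IntegralClosure
import Mathlib.RingTheory.Etale.Field
import Mathlib.RingTheory.Flat.Localization
import Mathlib.RingTheory.Flat.TorsionFree
import Mathlib.RingTheory.Smooth.Flat
import Mathlib.RingTheory.Localization.Away.Basic

/-!
# Finiteness of integral closures in generically étale flat algebras

`finite_of_etale_field` : `R` a Noetherian normal domain with fraction field `K`, `L` an étale `K`-algebra; the
integral closure of `R` in `L` is finite over `R`.

`finite_integralClosure` : `R` a Noetherian normal domain, `D` a flat `R`-algebra which over `R[1/r]`, `r ≠ 0`, becomes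
étale; the integral closure of `R` in `D` is a finite `R`-module.
-/

set_option autoImplicit false
universe u

open scoped TensorProduct

namespace Groth.Agent.Pi1.H384.NormFinRing

/-- If `L → M` is an injective `R`-algebra map and the integral closure of `R` in `M` is finite, so is the
one in `L` (`R` Noetherian). -/
theorem finite_of_injective {R L M : Type u} [CommRing R] [CommRing L] [CommRing M] [IsNoetherianRing R]
    [Algebra R L] [Algebra R M] (f : L →ₐ[R] M) (hf : Function.Injective f)
    (h : Module.Finite R (integralClosure R M)) : Module.Finite R (integralClosure R L) := by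
  let g : integralClosure R L →ₗ[R] integralClosure R M :=
    { toFun := fun x => ⟨f x.1, x.2.map f⟩
      map_add' := fun x y => by ext; simp
      map_smul' := fun r x => by ext; simp }
  have hg : Function.Injective g := by
    intro x y hxy
    have : f x.1 = f y.1 := congrArg Subtype.val hxy
    exact Subtype.ext (hf this)
  exact Module.Finite.of_injective g hg

/-- The integral closure of a Noetherian normal domain in an étale algebra over its fraction field is finite. -/
theorem finite_of_etale_field {R K L : Type u} [CommRing R] [IsDomain R] [IsNoetherianRing R]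
    [IsIntegrallyClosed R] [Field K] [Algebra R K] [IsFractionRing R K] [CommRing L] [Algebra K L]
    [Algebra R L] [IsScalarTower R K L] [Algebra.Etale K L] : Module.Finite R (integralClosure R L) := by
  obtain ⟨I, _, Ai, _, _, e, h⟩ := (Algebra.Etale.iff_exists_algEquiv_prod K L).mp inferInstance
  let _ : ∀ i, Algebra R (Ai i) := fun i => ((algebraMap K (Ai i)).comp (algebraMap R K)).toAlgebra
  have tow : ∀ i, IsScalarTower R K (Ai i) := fun i => IsScalarTower.of_algebraMap_eq' rfl
  have hfin : ∀ i, Module.Finite R (integralClosure R (Ai i)) := fun i => by
    have := (h i).1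
    have := (h i).2
    exact IsIntegralClosure.finite R K (Ai i) (integralClosure R (Ai i))
  let p : ∀ i, L →ₐ[R] Ai i := fun i =>
    ((Pi.evalAlgHom K Ai i).comp e.toAlgHom).restrictScalars R
  let g : integralClosure R L →ₗ[R] ∀ i, integralClosure R (Ai i) :=
    LinearMap.pi fun i => (p i).mapIntegralClosure.toLinearMap
  have hg : Function.Injective g := by
    intro x y hxy
    apply Subtype.ext
    apply e.injective
    funext i
    exact congrArg Subtype.val (congrFun hxy i)
  exact Module.Finite.of_injective g hg

/-- The integral closure of a Noetherian normal domain `R` in a flat algebra which is étale over `R[1/r]` is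
finite. -/
theorem finite_integralClosure {R D : Type u} [CommRing R] [IsDomain R] [IsNoetherianRing R]
    [IsIntegrallyClosed R] [CommRing D] [Algebra R D] [Module.Flat R D] (r : R) (hr : r ≠ 0)
    {Rr Dr : Type u} [CommRing Rr] [CommRing Dr] [Algebra R Rr] [IsLocalization.Away r Rr] [Algebra D Dr]
    [IsLocalization.Away (algebraMap R D r) Dr] [Algebra Rr Dr] [Algebra R Dr] [IsScalarTower R Rr Dr]
    [IsScalarTower R D Dr] [Algebra.Etale Rr Dr] : Module.Finite R (integralClosure R D) := by
  let K := FractionRing R
  have hrK : IsUnit (algebraMap R K r) :=
    IsUnit.mk0 _ (by simpa using hr)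
  let _ : Algebra Rr K := (IsLocalization.Away.lift r hrK).toAlgebra
  have tK : IsScalarTower R Rr K := IsScalarTower.of_algebraMap_eq fun x =>
    (IsLocalization.Away.lift_eq r hrK x).symm
  have hinjRr : Function.Injective (algebraMap Rr K) := by
    rw [injective_iff_map_eq_zero]
    intro x hx
    obtain ⟨⟨a, s⟩, hs⟩ := IsLocalization.surj (Submonoid.powers r) x
    have h3 : algebraMap Rr K (algebraMap R Rr a) = 0 := by
      rw [← hs, map_mul, hx, zero_mul]
    rw [← IsScalarTower.algebraMap_apply] at h3
    have h4 : a = 0 := by
      apply IsFractionRing.injective R K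
      rw [h3, map_zero]
    have h5 : x * algebraMap R Rr s = 0 := by rw [hs, h4, map_zero]
    exact (IsUnit.mul_left_eq_zero (IsLocalization.map_units Rr s)).mp h5
  let L := K ⊗[Rr] Dr
  have tL : IsScalarTower R K L := inferInstance
  have hL : Module.Finite R (integralClosure R L) := finite_of_etale_field (K := K)
  let ψ : Dr →ₐ[Rr] L := Algebra.TensorProduct.includeRight
  have hψ : Function.Injective ψ := by
    have hfl : Module.Flat Rr Dr := inferInstance
    exact Algebra.TensorProduct.includeRight_injective hinjRr
  have hnz : Function.Injective (algebraMap D Dr) := by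
    apply IsLocalization.injective (M := Submonoid.powers (algebraMap R D r))
    rintro _ ⟨n, rfl⟩
    have h1 : (algebraMap R D r) ∈ nonZeroDivisors D := by
      rw [mem_nonZeroDivisors_iff_right]
      intro x hx
      have h2 : Function.Injective (fun y : D => r • y) :=
        Module.Flat.isSMulRegular_of_nonZeroDivisors (mem_nonZeroDivisors_of_ne_zero hr)
      apply h2
      simp only [smul_zero]
      rw [Algebra.smul_def, mul_comm]
      exact hx
    exact pow_mem h1 n
  let f : D →ₐ[R] L :=
    { toRingHom := ψ.toRingHom.comp (algebraMap D Dr)
      commutes' := by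
        intro x
        change ψ (algebraMap D Dr (algebraMap R D x)) = algebraMap K L (algebraMap R K x)
        rw [← IsScalarTower.algebraMap_apply R D Dr, IsScalarTower.algebraMap_apply R Rr Dr, AlgHom.commutes,
          IsScalarTower.algebraMap_apply R Rr K, ← IsScalarTower.algebraMap_apply Rr K L] }
  exact finite_of_injective f (hψ.comp hnz) hL

end Groth.Agent.Pi1.H384.NormFinRing
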