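import Mathlib.AlgebraicGeometry.Normalization
import Mathlib.AlgebraicGeometry.Noetherian
import Mathlib.AlgebraicGeometry.Morphisms.Etale
import Groth.Agent.Pi1A.NormalEtale
import Groth.Agent.Pi1.H384.NormFinRing

/-!
# Finiteness of the normalization of a normal scheme in a generically étale flat affine scheme

`isFinite_fromNormalization` : `X` an integral normal locally Noetherian scheme, `e : E ⟶ X` affine and flat,
étale over a nonempty open; then the normalization of `X` in `E` is finite over `X`.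
-/

set_option autoImplicit false
universe u

open CategoryTheory CategoryTheory.Limits AlgebraicGeometry TopologicalSpace

namespace Groth.Agent.Pi1.H384.NormFin

/-- A nonempty affine open of an irreducible scheme contains a nonempty basic open inside a given nonempty open. -/
theorem exists_basicOpen_le {X : Scheme.{u}} [IsIntegral X] {U : X.Opens} (hU : IsAffineOpen U)
    (hU0 : (U : Set X).Nonempty) (O : X.Opens) (hO : (O : Set X).Nonempty) :
    ∃ r : Γ(X, U), r ≠ 0 ∧ X.basicOpen r ≤ O := by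
  obtain ⟨x, hx1, hx2⟩ := nonempty_preirreducible_inter U.2 O.2 hU0 hO
  obtain ⟨r, hr, hxr⟩ := hU.exists_basicOpen_le ⟨x, hx2⟩ hx1
  refine ⟨r, ?_, hr⟩
  rintro rfl
  rw [Scheme.basicOpen_zero] at hxr
  exact hxr

/-- Restriction of étaleness to sections over affine opens. -/
theorem etale_app {E X : Scheme.{u}} (e : E ⟶ X) [IsAffineHom e] (O : X.Opens) [Etale (e ∣_ O)] (V : X.Opens)
    (hV : IsAffineOpen V) (hVO : V ≤ O) : (e.app V).hom.Etale := by
  have h1 : IsAffineOpen (e ⁻¹ᵁ V) := hV.preimage e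
  have h2 : Etale ((e ⁻¹ᵁ O).ι ≫ e) := by
    rw [← morphismRestrict_ι]
    infer_instance
  have h3 : Etale (E.homOfLE (e.preimage_mono hVO) ≫ (e ⁻¹ᵁ O).ι ≫ e) := inferInstance
  have h4 : Etale ((e ⁻¹ᵁ V).ι ≫ e) := by
    rwa [← Category.assoc, Scheme.homOfLE_ι] at h3
  have h5 : Etale (e ∣_ V) := by
    have h6 : Etale ((e ∣_ V) ≫ V.ι) := by rwa [morphismRestrict_ι]
    exact Etale.of_comp _ V.ι
  have : IsAffine V.toScheme := hV
  have : IsAffine (e ⁻¹ᵁ V).toScheme := h1
  have h7 : (e ∣_ V).appTop.hom.Etale := by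
    exact (HasRingHomProperty.iff_of_isAffine (P := @Etale)).mp h5
  rw [morphismRestrict_appTop] at h7
  have h8 := (RingHom.Etale.respectsIso.cancel_right_isIso _ _).mp h7
  have e2 : V.ι ''ᵁ ⊤ = V := Scheme.Opens.ι_image_top V
  rwa [e2] at h8

/-- The normalization of an integral normal locally Noetherian scheme in an affine flat scheme over it which is
étale over a nonempty open is finite. -/
theorem isFinite_fromNormalization {E X : Scheme.{u}} (e : E ⟶ X) [IsAffineHom e] [Flat e] [IsIntegral X]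
    [IsLocallyNoetherian X] (hX : Pi1.IsNormalScheme X) (O : X.Opens) (hO : (O : Set X).Nonempty)
    [Etale (e ∣_ O)] : IsFinite e.fromNormalization := by
  refine ⟨fun U hU ↦ ?_⟩
  have hN : IsNoetherianRing Γ(X, U) := IsLocallyNoetherian.component_noetherian ⟨U, hU⟩
  algebraize [(e.app U).hom]
  have h : Module.Finite Γ(X, U) (integralClosure Γ(X, U) Γ(E, e ⁻¹ᵁ U)) := by
    by_cases hU0 : (U : Set X).Nonempty
    · obtain ⟨r, hr, hrO⟩ := exists_basicOpen_le hU hU0 O hO
      have : Nonempty U := hU0.to_subtype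
      have hic : IsIntegrallyClosed Γ(X, U) := Groth.Agent.Pi1A.NormalEtale.isIntegrallyClosed_of_isAffineOpen hX hU
      have hE : IsAffineOpen (e ⁻¹ᵁ U) := hU.preimage e
      have hfl : Module.Flat Γ(X, U) Γ(E, e ⁻¹ᵁ U) := by
        have h1 : (e.appLE U (e ⁻¹ᵁ U) le_rfl).hom.Flat := Flat.flat_appLE e hU hE le_rfl
        rw [← Scheme.Hom.app_eq_appLE] at h1
        exact h1
      let V := X.basicOpen r
      have hV : IsAffineOpen V := hU.basicOpen r
      have heV : e ⁻¹ᵁ V = E.basicOpen (e.app U r) := Scheme.preimage_basicOpen e r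
      have het : (e.app V).hom.Etale := etale_app e O V hV hrO
      let _ : Algebra Γ(X, U) Γ(X, V) := (X.presheaf.map (homOfLE (X.basicOpen_le r)).op).hom.toAlgebra
      let _ : Algebra Γ(E, e ⁻¹ᵁ U) Γ(E, e ⁻¹ᵁ V) :=
        (E.presheaf.map (homOfLE (e.preimage_mono (X.basicOpen_le r))).op).hom.toAlgebra
      let _ : Algebra Γ(X, V) Γ(E, e ⁻¹ᵁ V) := (e.app V).hom.toAlgebra
      let _ : Algebra Γ(X, U) Γ(E, e ⁻¹ᵁ V) := (e.appLE U (e ⁻¹ᵁ V) (e.preimage_mono (X.basicOpen_le r))).hom.toAlgebra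
      have : IsScalarTower Γ(X, U) Γ(X, V) Γ(E, e ⁻¹ᵁ V) := by
        refine IsScalarTower.of_algebraMap_eq' ?_
        have h1 : e.appLE U (e ⁻¹ᵁ V) (e.preimage_mono (X.basicOpen_le r)) =
            X.presheaf.map (homOfLE (X.basicOpen_le r)).op ≫ e.app V := by
          rw [Scheme.Hom.app_eq_appLE, Scheme.Hom.map_appLE]
        exact congrArg CommRingCat.Hom.hom h1
      have : IsScalarTower Γ(X, U) Γ(E, e ⁻¹ᵁ U) Γ(E, e ⁻¹ᵁ V) := by
        refine IsScalarTower.of_algebraMap_eq' ?_
        have h1 : e.appLE U (e ⁻¹ᵁ V) (e.preimage_mono (X.basicOpen_le r)) =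
            e.app U ≫ E.presheaf.map (homOfLE (e.preimage_mono (X.basicOpen_le r))).op := rfl
        exact congrArg CommRingCat.Hom.hom h1
      have : IsLocalization.Away r Γ(X, V) := hU.isLocalization_basicOpen r
      have : IsLocalization.Away (algebraMap Γ(X, U) Γ(E, e ⁻¹ᵁ U) r) Γ(E, e ⁻¹ᵁ V) :=
        hE.isLocalization_of_eq_basicOpen (e.app U r) (homOfLE (e.preimage_mono (X.basicOpen_le r))) heV
      have : Algebra.Etale Γ(X, V) Γ(E, e ⁻¹ᵁ V) := het
      exact NormFinRing.finite_integralClosure (R := Γ(X, U)) (D := Γ(E, e ⁻¹ᵁ U)) r hr (Rr := Γ(X, V))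
        (Dr := Γ(E, e ⁻¹ᵁ V))
    · have hUe : U = ⊥ := by
        apply Opens.ext
        exact Set.not_nonempty_iff_eq_empty.mp hU0
      have h1 : Subsingleton Γ(X, U) := by
        rw [hUe]
        infer_instance
      have h2 : Subsingleton (integralClosure Γ(X, U) Γ(E, e ⁻¹ᵁ U)) := Module.subsingleton Γ(X, U) _
      infer_instance
  rw [Scheme.Hom.fromNormalization_app _ hU]
  exact RingHom.finite_respectsIso.1 _ (e.normalizationObjIso hU).symm.commRingCatIsoToRingEquiv
    (RingHom.finite_algebraMap.mpr h)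

end Groth.Agent.Pi1.H384.NormFin
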