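import Mathlib.AlgebraicGeometry.Noetherian
import Mathlib.Topology.Sober

/-!
# Sets stable under specialization and generization in locally Noetherian schemes
-/

set_option autoImplicit false

universe u

open TopologicalSpace AlgebraicGeometry

namespace Groth.Agent.Pi1.H384.StableClopen

/-- In a Noetherian sober space, a set stable under specialization and generization is open. -/
theorem isOpen_of_stable {X : Type*} [TopologicalSpace X] [NoetherianSpace X] [QuasiSober X]
    {s : Set X} (h1 : StableUnderSpecialization s) (h2 : StableUnderGeneralization s) :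
    IsOpen s := by
  rw [isOpen_iff_forall_mem_open]
  intro x hx
  let C : Set (Set X) := {Z | Z ∈ irreducibleComponents X ∧ x ∉ Z}
  have hC : C.Finite := (NoetherianSpace.finite_irreducibleComponents (α := X)).subset
    fun Z hZ => hZ.1
  have hcl : IsClosed (⋃ Z ∈ C, Z) :=
    hC.isClosed_biUnion fun Z hZ => isClosed_of_mem_irreducibleComponents Z hZ.1
  refine ⟨(⋃ Z ∈ C, Z)ᶜ, ?_, hcl.isOpen_compl, ?_⟩
  · intro y hy
    have hZ : irreducibleComponent y ∈ irreducibleComponents X :=
      irreducibleComponent_mem_irreducibleComponents y
    have hxZ : x ∈ irreducibleComponent y := by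
      by_contra hcon
      exact hy (Set.mem_biUnion (show irreducibleComponent y ∈ C from ⟨hZ, hcon⟩)
        mem_irreducibleComponent)
    obtain ⟨g, hg⟩ := QuasiSober.sober (isIrreducible_irreducibleComponent (x := y))
      isClosed_irreducibleComponent
    have hgx : g ⤳ x := hg.specializes hxZ
    have hgy : g ⤳ y := hg.specializes mem_irreducibleComponent
    exact h1 hgy (h2 hgx hx)
  · simp only [Set.mem_compl_iff, Set.mem_iUnion, not_exists]
    intro Z hZ hxZ
    exact hZ.2 hxZ

/-- In a locally Noetherian scheme, a set stable under specialization and generization is open. -/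
theorem isOpen_of_stable_scheme {X : Scheme.{u}} [IsLocallyNoetherian X]
    {s : Set X} (h1 : StableUnderSpecialization s) (h2 : StableUnderGeneralization s) :
    IsOpen s := by
  rw [isOpen_iff_forall_mem_open]
  intro x hx
  obtain ⟨U, hU, hxU, -⟩ := exists_isAffineOpen_mem_and_subset (X := X) (x := x) (U := ⊤) trivial
  have hN : IsNoetherianRing Γ(X, U) := IsLocallyNoetherian.component_noetherian ⟨U, hU⟩
  have hns : NoetherianSpace (U : Scheme.{u}) := noetherianSpace_of_isAffineOpen U hU
  have hqs : QuasiSober (U : Scheme.{u}) := inferInstance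
  have hcont : Continuous (Subtype.val : U → X) := continuous_subtype_val
  have ho : IsOpen ((Subtype.val : U → X) ⁻¹' s) :=
    @isOpen_of_stable (U : Scheme.{u}) _ hns hqs _ (h1.preimage hcont) (h2.preimage hcont)
  refine ⟨Subtype.val '' ((Subtype.val : U → X) ⁻¹' s), ?_, U.2.isOpenMap_subtype_val _ ho,
    ⟨⟨x, hxU⟩, hx, rfl⟩⟩
  rintro _ ⟨y, hy, rfl⟩
  exact hy

/-- In a connected locally Noetherian scheme, a nonempty set stable under specialization and
generization is everything. -/
theorem eq_univ_of_stable {X : Scheme.{u}} [IsLocallyNoetherian X] [ConnectedSpace X]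
    {s : Set X} (hne : s.Nonempty) (h1 : StableUnderSpecialization s)
    (h2 : StableUnderGeneralization s) : s = Set.univ := by
  have ho := isOpen_of_stable_scheme h1 h2
  have hc := isOpen_of_stable_scheme (s := sᶜ) h2.compl h1.compl
  exact IsClopen.eq_univ ⟨⟨hc⟩, ho⟩ hne

end Groth.Agent.Pi1.H384.StableClopen
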